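import Cfsg.Agent.GTwoFour.MdlInvChk

/-!
# `G₂(4)` in dimension six: the two classes of elements of order eight (helper785)

`x₇(1) x₆(1)` and `x₇(1) x₆(1) x₈(w)` are regular unipotent: rational, not conjugate, centralizers of order at most 32.
-/

set_option autoImplicit false
set_option linter.unusedVariables false
set_option Elab.async false

namespace Cfsg.Agent.H785.G24

open Cfsg.Agent.SporRec.GF4
open Cfsg.Agent.StdG24.Mod6
open Cfsg.Agent.StdG24.Ord6 (card_L)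
open Cfsg.Agent.GTwoFour.Mdl
open Cfsg.Agent.GTwoFour.MdlInvChk

/-! ### Checks on codes -/

/-- elements of `S` which act on the line like an element commuting with the elements of order eight lie in `X₇` -/
def chkS (Y' : List ℕ) : Bool :=
  allF SC fun C => impF (Nat.beq (appF C 5) (appF Y' (appF C 4))) (siftF [7] C)

/-- the elements of `U` with `g y = y' g` -/
def chkU (Y Y' : List ℕ) (l : List (List ℕ)) : Bool :=
  allN [7, 6, 8, 9, 10, 11] idC fun C =>
    impF (Nat.beq (appF C (appF Y 1024)) (appF Y' (appF C 1024))) (memF C l)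

theorem appF_lt {g : GL6} {C : List ℕ} (h : Cd g C) (v : ℕ) : appF C v < 4096 := by
  rw [appF_eq]
  exact IsCode.app_lt h v

theorem act_dec {g : GL6} {C : List ℕ} (h : Cd g C) {n : ℕ} (hn : n < 4096) : act g (dec n) = dec (appF C n) :=
  (h.act_iff hn (appF_lt h n)).2 rfl

theorem beq_of {g y y' : GL6} {C Y Y' : List ℕ} (hg : Cd g C) (hy : Cd y Y) (hy' : Cd y' Y') (h : g * y = y' * g)
    {n : ℕ} (hn : n < 4096) : Nat.beq (appF C (appF Y n)) (appF Y' (appF C n)) = true := by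
  have h1 : act g (act y (dec n)) = act y' (act g (dec n)) := by rw [← act_mul, h, act_mul]
  rw [act_dec hy hn, act_dec hg hn, act_dec hg (appF_lt hy n), act_dec hy' (appF_lt hg n)] at h1
  rw [dec_inj (appF_lt hg _) (appF_lt hy' _) h1]
  exact Nat.beq_refl _

/-- an element `g` with `g y = y' g` lies in `U` -/
theorem mem_U {y y' g : GL6} {Y Y' : List ℕ} (hy : Cd y Y) (hy' : Cd y' Y') (h4 : appF Y 4 = 5)
    (hchk : chkS Y' = true) (hz : y ^ 4 = gx 11 0) (hz' : y' ^ 4 = gx 11 0) (hg : g ∈ L) (h : g * y = y' * g) :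
    g ∈ U := by
  have h0 : ∀ n : ℕ, g * y ^ n = y' ^ n * g := by
    intro n
    induction n with
    | zero => rw [pow_zero, pow_zero, mul_one, one_mul]
    | succ n ih => rw [pow_succ, pow_succ, ← mul_assoc, ih, mul_assoc, h, ← mul_assoc]
  have h1 : g * gx 11 0 = gx 11 0 * g := by
    have := h0 4
    rwa [hz, hz'] at this
  obtain ⟨s, hs, q, hq, rfl⟩ := mem_P_of_comm hg h1
  obtain ⟨C, hC, hsC⟩ := S_code hs
  have q1 := Q1_fix1 hq
  have q4 := Q1_fix4 hq
  have d5 : dec 5 = dec 1 + dec 4 := by rw [← dec_xor]; rfl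
  have q5 : act q (dec 5) = dec 5 := by rw [d5, act_add, q1, q4]
  have y4 : act y (dec 4) = dec 5 := act_dec_of hy (by norm_num) (by norm_num) h4
  have h5 : act s (dec 5) = act y' (act s (dec 4)) := by
    have e : act (s * q * y) (dec 4) = act (y' * (s * q)) (dec 4) := by rw [h]
    rwa [act_mul, act_mul, y4, q5, act_mul, act_mul, q4] at e
  rw [act_dec hsC (by norm_num), act_dec hsC (by norm_num), act_dec hy' (appF_lt hsC 4)] at h5
  have h6 := dec_inj (appF_lt hsC _) (appF_lt hy' _) h5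
  have h7 : siftF [7] C = true := impF_spec (allF_spec hchk C hC) (by rw [h6]; exact Nat.beq_refl _)
  have h8 : s ∈ X 7 := siftF_sound (N := X 7) (by intro r hr; rw [List.mem_singleton.1 hr]) hsC h7
  exact ⟨s, h8, q, hq, rfl⟩

/-- the codes of the elements `g` with `g y = y' g` -/
theorem code_mem {y y' g : GL6} {Y Y' : List ℕ} (hy : Cd y Y) (hy' : Cd y' Y') (h4 : appF Y 4 = 5)
    (hchk : chkS Y' = true) (hz : y ^ 4 = gx 11 0) (hz' : y' ^ 4 = gx 11 0) {l : List (List ℕ)}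
    (hU : chkU Y Y' l = true) (hg : g ∈ L) (h : g * y = y' * g) : ∃ C ∈ l, Cd g C := by
  obtain ⟨C, hC, h'⟩ := allN_one hU g (U_PS (mem_U hy hy' h4 hchk hz hz' hg h))
  exact ⟨C, memF_iff.1 (impF_spec h' (beq_of hC hy hy' h (by norm_num))), hC⟩

/-- the order of a centralizer -/
theorem card_cent_le {y : GL6} (hyL : y ∈ L) {Y : List ℕ} (hy : Cd y Y) (h4 : appF Y 4 = 5) (hchk : chkS Y = true)
    (hz : y ^ 4 = gx 11 0) {l : List (List ℕ)} (hU : chkU Y Y l = true) :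
    Nat.card (Subgroup.centralizer ({(⟨y, hyL⟩ : L)} : Set L)) ≤ l.length := by
  classical
  have key : ∀ g : Subgroup.centralizer ({(⟨y, hyL⟩ : L)} : Set L), ∃ C ∈ l, Cd ((g : L) : GL6) C := by
    intro g
    refine code_mem hy hy h4 hchk hz hz hU (g : L).2 ?_
    have h := Subgroup.mem_centralizer_singleton_iff.1 g.2
    exact congrArg Subtype.val h
  choose c hc hcd using key
  have hinj : Function.Injective (fun g => (⟨c g, List.mem_toFinset.2 (hc g)⟩ : l.toFinset)) := by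
    intro g g' h
    have h1 : c g = c g' := congrArg Subtype.val h
    have h2 := hcd g
    rw [h1] at h2
    exact Subtype.ext (Subtype.ext (h2.inj (hcd g')))
  have h := Nat.card_le_card_of_injective _ hinj
  have h' : Nat.card l.toFinset = l.toFinset.card := by rw [Nat.card_eq_fintype_card, Fintype.card_coe]
  exact (h.trans_eq h').trans (List.toFinset_card_le l)

/-! ### The elements -/

def wa : Wd := [(7, 0), (6, 0)]
def wb : Wd := [(7, 0), (6, 0), (8, 1)]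

def Ca : List ℕ := [1, 2, 5, 10, 21, 42, 80, 160, 336, 672, 1280, 2560]
def Cb : List ℕ := [1, 2, 5, 10, 23, 41, 80, 160, 351, 677, 1440, 2800]

theorem cw_wa : cw wa = Ca := by decide +kernel
theorem cw_wb : cw wb = Cb := by decide +kernel

theorem Cd_a : Cd (ev wa) Ca := by rw [← cw_wa]; exact Cd_ev wa
theorem Cd_b : Cd (ev wb) Cb := by rw [← cw_wb]; exact Cd_ev wb

/-- codes of the centralizers -/
def La : List (List ℕ) := [
  [1, 2, 4, 8, 16, 32, 64, 128, 256, 512, 1024, 2048],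
  [1, 2, 4, 8, 16, 32, 64, 128, 257, 514, 1028, 2056],
  [1, 2, 4, 8, 16, 32, 64, 128, 258, 515, 1032, 2060],
  [1, 2, 4, 8, 16, 32, 64, 128, 259, 513, 1036, 2052],
  [1, 2, 4, 8, 17, 34, 69, 138, 276, 552, 1108, 2216],
  [1, 2, 4, 8, 17, 34, 69, 138, 277, 554, 1104, 2208],
  [1, 2, 4, 8, 17, 34, 69, 138, 278, 555, 1116, 2212],
  [1, 2, 4, 8, 17, 34, 69, 138, 279, 553, 1112, 2220],
  [1, 2, 4, 8, 18, 35, 75, 141, 300, 564, 1214, 2263],
  [1, 2, 4, 8, 18, 35, 75, 141, 301, 566, 1210, 2271],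
  [1, 2, 4, 8, 18, 35, 75, 141, 302, 567, 1206, 2267],
  [1, 2, 4, 8, 18, 35, 75, 141, 303, 565, 1202, 2259],
  [1, 2, 4, 8, 19, 33, 78, 135, 312, 540, 1259, 2173],
  [1, 2, 4, 8, 19, 33, 78, 135, 313, 542, 1263, 2165],
  [1, 2, 4, 8, 19, 33, 78, 135, 314, 543, 1251, 2161],
  [1, 2, 4, 8, 19, 33, 78, 135, 315, 541, 1255, 2169],
  [1, 2, 5, 10, 20, 40, 84, 168, 320, 640, 1344, 2688],
  [1, 2, 5, 10, 20, 40, 84, 168, 321, 642, 1349, 2698],
  [1, 2, 5, 10, 20, 40, 84, 168, 322, 643, 1354, 2703],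
  [1, 2, 5, 10, 20, 40, 84, 168, 323, 641, 1359, 2693],
  [1, 2, 5, 10, 21, 42, 80, 160, 336, 672, 1280, 2560],
  [1, 2, 5, 10, 21, 42, 80, 160, 337, 674, 1285, 2570],
  [1, 2, 5, 10, 21, 42, 80, 160, 338, 675, 1290, 2575],
  [1, 2, 5, 10, 21, 42, 80, 160, 339, 673, 1295, 2565],
  [1, 2, 5, 10, 22, 43, 93, 166, 356, 696, 1494, 2667],
  [1, 2, 5, 10, 22, 43, 93, 166, 357, 698, 1491, 2657],
  [1, 2, 5, 10, 22, 43, 93, 166, 358, 699, 1500, 2660],
  [1, 2, 5, 10, 22, 43, 93, 166, 359, 697, 1497, 2670],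
  [1, 2, 5, 10, 23, 41, 89, 174, 372, 664, 1431, 2793],
  [1, 2, 5, 10, 23, 41, 89, 174, 373, 666, 1426, 2787],
  [1, 2, 5, 10, 23, 41, 89, 174, 374, 667, 1437, 2790],
  [1, 2, 5, 10, 23, 41, 89, 174, 375, 665, 1432, 2796]]

def Lb : List (List ℕ) := [
  [1, 2, 4, 8, 16, 32, 64, 128, 256, 512, 1024, 2048],
  [1, 2, 4, 8, 16, 32, 64, 128, 257, 514, 1028, 2056],
  [1, 2, 4, 8, 16, 32, 64, 128, 258, 515, 1032, 2060],
  [1, 2, 4, 8, 16, 32, 64, 128, 259, 513, 1036, 2052],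
  [1, 2, 4, 8, 17, 34, 71, 137, 276, 552, 1142, 2203],
  [1, 2, 4, 8, 17, 34, 71, 137, 277, 554, 1138, 2195],
  [1, 2, 4, 8, 17, 34, 71, 137, 278, 555, 1150, 2199],
  [1, 2, 4, 8, 17, 34, 71, 137, 279, 553, 1146, 2207],
  [1, 2, 4, 8, 18, 35, 72, 140, 300, 564, 1167, 2245],
  [1, 2, 4, 8, 18, 35, 72, 140, 301, 566, 1163, 2253],
  [1, 2, 4, 8, 18, 35, 72, 140, 302, 567, 1159, 2249],
  [1, 2, 4, 8, 18, 35, 72, 140, 303, 565, 1155, 2241],
  [1, 2, 4, 8, 19, 33, 79, 133, 312, 540, 1272, 2140],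
  [1, 2, 4, 8, 19, 33, 79, 133, 313, 542, 1276, 2132],
  [1, 2, 4, 8, 19, 33, 79, 133, 314, 543, 1264, 2128],
  [1, 2, 4, 8, 19, 33, 79, 133, 315, 541, 1268, 2136],
  [1, 2, 5, 10, 20, 40, 92, 164, 360, 700, 1387, 2749],
  [1, 2, 5, 10, 20, 40, 92, 164, 361, 702, 1390, 2743],
  [1, 2, 5, 10, 20, 40, 92, 164, 362, 703, 1377, 2738],
  [1, 2, 5, 10, 20, 40, 92, 164, 363, 701, 1380, 2744],
  [1, 2, 5, 10, 21, 42, 90, 175, 376, 668, 1289, 2574],
  [1, 2, 5, 10, 21, 42, 90, 175, 377, 670, 1292, 2564],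
  [1, 2, 5, 10, 21, 42, 90, 175, 378, 671, 1283, 2561],
  [1, 2, 5, 10, 21, 42, 90, 175, 379, 669, 1286, 2571],
  [1, 2, 5, 10, 22, 43, 86, 171, 332, 644, 1484, 2628],
  [1, 2, 5, 10, 22, 43, 86, 171, 333, 646, 1481, 2638],
  [1, 2, 5, 10, 22, 43, 86, 171, 334, 647, 1478, 2635],
  [1, 2, 5, 10, 22, 43, 86, 171, 335, 645, 1475, 2625],
  [1, 2, 5, 10, 23, 41, 80, 160, 348, 676, 1455, 2805],
  [1, 2, 5, 10, 23, 41, 80, 160, 349, 678, 1450, 2815],
  [1, 2, 5, 10, 23, 41, 80, 160, 350, 679, 1445, 2810],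
  [1, 2, 5, 10, 23, 41, 80, 160, 351, 677, 1440, 2800]]

theorem chkS_a : chkS Ca = true := by decide +kernel
theorem chkS_b : chkS Cb = true := by decide +kernel
theorem four_a : appF Ca 4 = 5 := by decide +kernel
theorem chkU_aa : chkU Ca Ca La = true := by decide +kernel
theorem four_b : appF Cb 4 = 5 := by decide +kernel
theorem chkU_bb : chkU Cb Cb Lb = true := by decide +kernel
theorem chkU_ab : chkU Ca Cb [] = true := by decide +kernel

theorem gxe (r : Fin 12) (t : Fin 3) : gx r t = ev [(r, t)] := (ev_singleton (r, t)).symm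

theorem pow4 (w : Wd) : ev w ^ 4 = ev (w ++ (w ++ (w ++ w))) := by
  rw [ev_append, ev_append, ev_append]
  simp only [pow_succ, pow_zero, one_mul, mul_assoc]

theorem pow3 (w : Wd) : ev w ^ 3 = ev (w ++ (w ++ w)) := by
  rw [ev_append, ev_append]
  simp only [pow_succ, pow_zero, one_mul, mul_assoc]

theorem pow4_a : ev wa ^ 4 = gx 11 0 := by
  rw [pow4, gxe]
  exact ev_eq_of (by decide +kernel)

theorem pow4_b : ev wb ^ 4 = gx 11 0 := by
  rw [pow4, gxe]
  exact ev_eq_of (by decide +kernel)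

/-- the elements of order eight -/
def ya : L := ⟨ev wa, ev_mem wa⟩
def yb : L := ⟨ev wb, ev_mem wb⟩

theorem cent_ya : Nat.card (Subgroup.centralizer ({ya} : Set L)) ≤ 32 :=
  card_cent_le (ev_mem wa) Cd_a four_a chkS_a pow4_a chkU_aa

theorem cent_yb : Nat.card (Subgroup.centralizer ({yb} : Set L)) ≤ 32 :=
  card_cent_le (ev_mem wb) Cd_b four_b chkS_b pow4_b chkU_bb

theorem not_conj : ¬ IsConj ya yb := by
  intro h
  obtain ⟨g, hg⟩ := isConj_iff.1 h
  have h1 : (g : GL6) * ev wa = ev wb * (g : GL6) := by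
    have h2 : g * ya = yb * g := by rw [← hg]; group
    exact congrArg Subtype.val h2
  obtain ⟨C, hC, -⟩ := code_mem Cd_a Cd_b four_a chkS_b pow4_a pow4_b chkU_ab g.2 h1
  exact absurd hC List.not_mem_nil

theorem pow8_of {w : Wd} (h : ev w ^ 4 = gx 11 0) : ev w ^ 8 = 1 := by
  rw [show 8 = 4 + 4 by rfl, pow_add, h, gx_sq]

theorem pow8_ya : ya ^ 8 = 1 := Subtype.ext (pow8_of pow4_a)
theorem pow8_yb : yb ^ 8 = 1 := Subtype.ext (pow8_of pow4_b)

/-- conjugacy from an equation between words -/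
theorem conj3_of {w k : Wd} (h : cw (k ++ w) = cw (w ++ (w ++ (w ++ k)))) :
    IsConj (⟨ev w, ev_mem w⟩ : L) ((⟨ev w, ev_mem w⟩ : L) ^ 3) := by
  refine isConj_iff.2 ⟨⟨ev k, ev_mem k⟩, Subtype.ext ?_⟩
  have h1 := ev_eq_of h
  rw [ev_append, ev_append, ev_append, ev_append] at h1
  show ev k * ev w * (ev k)⁻¹ = ev w ^ 3
  rw [h1, mul_inv_eq_iff_eq_mul]
  simp only [pow_succ, pow_zero, one_mul, mul_assoc]

theorem conj5_of {w k : Wd} (h : cw (k ++ w) = cw (w ++ (w ++ (w ++ (w ++ (w ++ k)))))) :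
    IsConj (⟨ev w, ev_mem w⟩ : L) ((⟨ev w, ev_mem w⟩ : L) ^ 5) := by
  refine isConj_iff.2 ⟨⟨ev k, ev_mem k⟩, Subtype.ext ?_⟩
  have h1 := ev_eq_of h
  rw [ev_append, ev_append, ev_append, ev_append, ev_append, ev_append] at h1
  show ev k * ev w * (ev k)⁻¹ = ev w ^ 5
  rw [h1, mul_inv_eq_iff_eq_mul]
  simp only [pow_succ, pow_zero, one_mul, mul_assoc]

theorem conj3_ya : IsConj ya (ya ^ 3) := conj3_of (k := [(6, 0), (10, 0)]) (by decide +kernel)
theorem conj5_ya : IsConj ya (ya ^ 5) := conj5_of (k := [(10, 0)]) (by decide +kernel)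
theorem conj3_yb : IsConj yb (yb ^ 3) := conj3_of (k := [(7, 0), (10, 0)]) (by decide +kernel)
theorem conj5_yb : IsConj yb (yb ^ 5) := conj5_of (k := [(10, 0)]) (by decide +kernel)

end Cfsg.Agent.H785.G24
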