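import Cfsg.Agent.H129.UntwT
import Cfsg.Agent.H129.DataG2h
import Cfsg.Agent.H378.LatCodim
import Cfsg.Agent.S1059

/-!
# `G₂(4)`: the centralizers of the elements of order 13 (helper785)
-/

set_option autoImplicit false
open Subgroup

namespace Cfsg.Agent.H785.G24

open Cfsg.Lie Cfsg.Agent.H129 Cfsg.Agent.H129.TorusTw Cfsg.Agent.Nodes.RGDChev

universe u

variable {F : Type u} [Field F] [Fintype F]

theorem not_dvd_int {p : ℕ} {m : ℕ} (hm : 0 < m) (h : m < p) : ¬ (p : ℤ) ∣ (m : ℤ) := by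
  intro h1
  have := Nat.le_of_dvd hm (Int.natCast_dvd_natCast.1 h1)
  omega

theorem typ2 : IsType chevG2 2 CoxeterMatrix.G₂ := by simp

theorem notW2 {r : ℕ} (hr : r.Prime) (h8 : 7 ≤ r) : ¬ r ∣ Nat.card CoxeterMatrix.G₂.Group := fun h => by
  have := finite_W typ2 CoxeterMatrix.G₂.toCoxeterSystem
  have := Cfsg.Agent.H378.LatCodim.le_of_dvd_card CoxeterMatrix.G₂.toCoxeterSystem typ2.isCartan hr h
  omega

/-- the cyclic torus of order 13 of `G₂(4)` -/
theorem torus13 (hF : Fintype.card F = 4) :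
    ∃ T : Subgroup ↥(chevG2.group F), Nat.card ↥T = 13 ∧
      ∀ y ∈ T, orderOf y = 13 → Subgroup.centralizer {y} ≤ T := by
  have := finite_W typ2 CoxeterMatrix.G₂.toCoxeterSystem
  have hr : Nat.Prime 13 := by norm_num
  have hN : ((13 : ℕ) : ℤ) = 1 - ((4 : ℕ) : ℤ) + ((4 : ℕ) : ℤ) ^ 2 := by norm_num
  have hrq : ((13 : ℕ) : ℤ) ∣ 1 - ((4 : ℕ) : ℤ) + ((4 : ℕ) : ℤ) ^ 2 := by norm_num
  have hG : ∀ s, ¬ ((13 : ℕ) : ℤ) ∣ Gq DataG2h.B ((4 : ℕ) : ℤ) (DataG2h.R s) := by
    intro s hs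
    rcases DataG2h.dvd_of_G hrq s hs with h1 | h1
    · exact not_dvd_int (m := 1) (p := 13) (by norm_num) (by omega) h1
    · exact not_dvd_int (m := 3) (p := 13) (by norm_num) (by omega) h1
  have hqN : (4 : ℕ).Coprime 13 := by norm_num
  obtain ⟨T, h1, h3, h4, h5, -⟩ := UntwT.untw_T typ2 CoxeterMatrix.G₂.toCoxeterSystem (by norm_num) hF
    TorusChar.invC_G2 one_ne_zero DataG2h.hA DataG2h.chainOK DataG2h.cycOK DataG2h.rootOK (N := 13)
    (by rw [DataG2h.fN_eq, hN]) hqN (d := 1) (Or.inl rfl)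
  rw [one_mul] at h4
  exact ⟨T, Nat.dvd_antisymm h3 h4, h5 13 hr (notW2 hr (by norm_num)) hG⟩

theorem card_G2 (hF : Fintype.card F = 4) : Nat.card ↥(chevG2.group F) = 251596800 := by
  rw [Cfsg.Agent.S1059.result hF]; norm_num

/-- in a group with a Sylow subgroup of order 13 which contains its centralizers -/
theorem iso13 {G : Type*} [Group G] [Finite G] (hc : Nat.card G = 251596800) {T : Subgroup G}
    (hT : Nat.card T = 13) (hcT : ∀ y ∈ T, orderOf y = 13 → Subgroup.centralizer {y} ≤ T) (y : G)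
    (hy : orderOf y = 13) : Nat.card (Subgroup.centralizer ({y} : Set G)) = 13 := by
  have hp : Fact (Nat.Prime 13) := ⟨by norm_num⟩
  have hf : (Nat.card G).factorization 13 = 1 := by
    rw [hc, show (251596800 : ℕ) = 13 ^ 1 * 19353600 by norm_num, Nat.factorization_mul (by norm_num) (by norm_num),
      Nat.Prime.factorization_pow (by norm_num), Finsupp.add_apply, Finsupp.single_eq_same,
      Nat.factorization_eq_zero_of_not_dvd (by norm_num)]
  let S : Sylow 13 G := Sylow.ofCard T (by rw [hT, hf, pow_one])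
  obtain ⟨Q, hQ⟩ := (IsPGroup.of_card (n := 1) (by rw [Nat.card_zpowers, hy, pow_one]) :
    IsPGroup 13 (Subgroup.zpowers y)).exists_le_sylow
  obtain ⟨g, hg⟩ := MulAction.exists_smul_eq G Q S
  have h1 : g * y * g⁻¹ ∈ T := by
    have h2 : y ∈ (Q : Subgroup G) := hQ (Subgroup.mem_zpowers y)
    have h3 : g * y * g⁻¹ ∈ ((g • Q : Sylow 13 G) : Subgroup G) := by
      rw [Sylow.coe_subgroup_smul]
      exact Subgroup.smul_mem_pointwise_smul _ (MulAut.conj g) _ h2
    rw [hg] at h3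
    exact h3
  have ho : orderOf (g * y * g⁻¹) = 13 := by
    have := (MulAut.conj g).orderOf_eq y
    rw [MulAut.conj_apply] at this
    rw [this, hy]
  have h4 : Subgroup.centralizer {g * y * g⁻¹} ≤ T := hcT _ h1 ho
  have h5 : ∀ a : G, a ∈ Subgroup.centralizer ({y} : Set G) → g * a * g⁻¹ ∈ T := by
    intro a ha
    apply h4
    rw [Subgroup.mem_centralizer_singleton_iff] at ha ⊢
    calc g * a * g⁻¹ * (g * y * g⁻¹) = g * (a * y) * g⁻¹ := by group
      _ = g * (y * a) * g⁻¹ := by rw [ha]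
      _ = _ := by group
  have h6 : Nat.card (Subgroup.centralizer ({y} : Set G)) ≤ 13 := by
    rw [← hT]
    refine Nat.card_le_card_of_injective (fun a : Subgroup.centralizer ({y} : Set G) => (⟨g * a * g⁻¹, h5 a a.2⟩ : T)) ?_
    intro a b h
    have h7 : g * (a : G) * g⁻¹ = g * (b : G) * g⁻¹ := congrArg Subtype.val h
    exact Subtype.ext (mul_left_cancel (mul_right_cancel h7))
  have h7 : 13 ∣ Nat.card (Subgroup.centralizer ({y} : Set G)) := by
    have h8 : Subgroup.zpowers y ≤ Subgroup.centralizer ({y} : Set G) := by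
      rw [Subgroup.zpowers_le, Subgroup.mem_centralizer_singleton_iff]
    have h9 := Subgroup.card_dvd_of_le h8
    rwa [Nat.card_zpowers, hy] at h9
  exact le_antisymm h6 (Nat.le_of_dvd Nat.card_pos h7)

/-- the elements of order 13 of `G₂(4)` -/
theorem c13 (hF : Fintype.card F = 4) (y : ↥(chevG2.group F)) (hy : orderOf y = 13) :
    Nat.card (Subgroup.centralizer ({y} : Set ↥(chevG2.group F))) = 13 := by
  have hc := card_G2 hF
  have : Finite ↥(chevG2.group F) := Nat.finite_of_card_ne_zero (by rw [hc]; norm_num)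
  obtain ⟨T, hT, h⟩ := torus13 hF
  exact iso13 hc hT h y hy

end Cfsg.Agent.H785.G24
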