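import Cfsg.Agent.H785.G24.Cls
import Cfsg.Agent.H785.G24.Iso
import Cfsg.Agent.H785.OZ8.Tools
import Cfsg.Agent.H672.OZ.Full
import Cfsg.Agent.H730.OZ.Asm
import Cfsg.Agent.H631.Kaw.Main
import Cfsg.Agent.Nodes.RGDChev
import Cfsg.Agent.StdG24.Iso6
import Cfsg.Agent.S1055

/-!
# S4842, the row `G₂(4)` (helper785)

No irreducible character of `G₂(4)` vanishes on exactly one class: the sieve (13 is isolated) leaves even degrees
only; the two classes of elements of order 8 are rational with centralizers of order 32 and there are `2 ^ 24`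
elements of order a power of two.
-/

set_option autoImplicit false

open Cfsg Cfsg.Agent.Characters Cfsg.Agent.H732.VZ Cfsg.Agent.H604.OZ

namespace Cfsg.Agent.H785.G24

open Cfsg.Agent.SporRec.GF4
open Cfsg.Agent.StdG24.Mod6
open Cfsg.Agent.Nodes.RGDChev

universe u

theorem cardL : Nat.card L = 251596800 := Cfsg.Agent.StdG24.Ord6.card_L

theorem finiteL : Finite L := Nat.finite_of_card_ne_zero (by rw [cardL]; norm_num)

theorem simpleL : IsSimpleGroup L := by
  obtain ⟨e⟩ := Cfsg.Agent.StdG24.Iso6.equiv_chev F4 F4.card_F4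
  have hs := (Cfsg.Agent.S1055.result (F := F4) ⟨F4.w, by decide, by decide⟩).1
  have : Nontrivial L := e.symm.injective.nontrivial
  exact IsSimpleGroup.isSimpleGroup_of_surjective e.symm.toMonoidHom e.symm.surjective

theorem card_cent_equiv {G H : Type*} [Group G] [Group H] (e : G ≃* H) (y : G) :
    Nat.card (Subgroup.centralizer ({y} : Set G)) = Nat.card (Subgroup.centralizer ({e y} : Set H)) := by
  refine Nat.card_congr (e.toEquiv.subtypeEquiv fun a => ?_)
  rw [Subgroup.mem_centralizer_singleton_iff, Subgroup.mem_centralizer_singleton_iff]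
  show a * y = y * a ↔ e a * e y = e y * e a
  rw [← map_mul, ← map_mul]
  exact e.injective.eq_iff.symm

theorem c13L (y : L) (hy : orderOf y = 13) : Nat.card (Subgroup.centralizer ({y} : Set L)) = 13 := by
  obtain ⟨e⟩ := Cfsg.Agent.StdG24.Iso6.equiv_chev F4 F4.card_F4
  rw [card_cent_equiv e]
  exact c13 F4.card_F4 _ ((MulEquiv.orderOf_eq e y).trans hy)

theorem factL : (251596800 : ℕ).factorization 2 = 12 := by
  rw [show (251596800 : ℕ) = 2 ^ 12 * 61425 by norm_num, Nat.factorization_mul (by norm_num) (by norm_num),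
    Nat.Prime.factorization_pow Nat.prime_two, Finsupp.add_apply, Finsupp.single_eq_same,
    Nat.factorization_eq_zero_of_not_dvd (by norm_num)]

theorem char_F4 : CharP F4 2 := by
  have h : (2 : F4) = 0 := by decide
  exact CharP.of_prime_of_natCast_eq_zero_aux h
where
  CharP.of_prime_of_natCast_eq_zero_aux (h : (2 : F4) = 0) : CharP F4 2 := by
    have h1 : ringChar F4 ∣ 2 := by
      rw [← ringChar.spec]
      exact_mod_cast h
    rcases (Nat.dvd_prime Nat.prime_two).1 h1 with h2 | h2
    · have := ringChar.spec F4 1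
      rw [h2] at this
      exact absurd (this.2 dvd_rfl) (by decide)
    · exact ringChar.of_eq h2

/-- the number of 2-elements -/
theorem card_two : (H730.OZ.pSet 2 L).ncard = 2 ^ 24 := by
  have hfin := finiteL
  have := char_F4
  obtain ⟨e⟩ := Cfsg.Agent.StdG24.Iso6.equiv_chev F4 F4.card_F4
  have hR : HasRGD 2 L := (hasRGD_G2 F4 2).of_equiv e.symm
  have h := H631.Kaw.card_pSet hR
  rw [cardL, factL] at h
  exact h

/-- degrees left by the sieve -/
def DD : List ℕ := [12, 40, 64, 90, 144, 480, 768, 2560, 5760]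

theorem DD_ok : ∀ d ∈ DD, 2 ∣ d := by decide +kernel

theorem not_two_dvd {m : ℕ} (h : m.Coprime (Nat.card L)) : ¬ 2 ∣ m := by
  rw [cardL] at h
  intro h1
  have h2 := Nat.dvd_gcd h1 (show 2 ∣ 251596800 by norm_num)
  rw [h] at h2
  omega

theorem order_pp {y : L} {r k : ℕ} (hr : r.Prime) (h : y ^ r ^ k = 1) : ∃ n, orderOf y = r ^ n := by
  obtain ⟨n, -, hn⟩ := (Nat.dvd_prime_pow hr).1 (orderOf_dvd_of_pow_eq_one h)
  exact ⟨n, hn⟩

open Cfsg.Agent.H785.OZ8 in
/-- **The row.** -/
theorem row_L : H730.OZ.Row L := by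
  have hfin := finiteL
  have hsim := simpleL
  have hN := cardL
  refine row_of fun χ x h => ?_
  have h4 : 4 ≤ cent x := four_le_cent h (by rw [hN]; norm_num) (by rw [hN]; norm_num)
  have h2e : (∃ k, orderOf x = 2 ^ k) → 15 ≤ cent x := by
    intro hx
    have h1 := card_le_of_pSet card_two hx
    rw [hN] at h1
    by_contra hlt
    have h2 : cent x ≤ 14 := by omega
    have h3 := Nat.mul_le_mul_left (2 ^ 24) h2
    omega
  have h6 : 6 ≤ cent x := by
    by_contra hlt
    have h1 : cent x = 4 ∨ cent x = 5 := by omega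
    rcases h1 with h1 | h1
    · have h2 := orderOf_dvd_cent x
      rw [h1] at h2
      obtain ⟨n, -, hn⟩ := (Nat.dvd_prime_pow Nat.prime_two).1 (show orderOf x ∣ 2 ^ 2 from h2)
      have h3 := h2e ⟨n, hn⟩
      omega
    · exact cent_prime (ne_one h) (by rw [h1]; norm_num) (by rw [h1, hN]; norm_num)
  -- the degree is odd
  have hd2 : ¬ 2 ∣ charDegree (χ : L → ℂ) := by
    intro hd
    have o1 : ∃ n, orderOf ya = 2 ^ n := order_pp Nat.prime_two (k := 3) pow8_ya
    have o2 : ∃ n, orderOf yb = 2 ^ n := order_pp Nat.prime_two (k := 3) pow8_yb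
    have r1 : ∀ m : ℕ, m.Coprime (Nat.card L) → IsConj (ya ^ m) ya := fun m hm =>
      rat8 pow8_ya conj3_ya conj5_ya (not_two_dvd hm)
    have r2 : ∀ m : ℕ, m.Coprime (Nat.card L) → IsConj (yb ^ m) yb := fun m hm =>
      rat8 pow8_yb conj3_yb conj5_yb (not_two_dvd hm)
    by_cases hx1 : IsConj x ya
    · have h1 := h2e (by
        obtain ⟨n, hn⟩ := o1
        exact ⟨n, by rw [orderOf_eq_of_conj hx1, hn]⟩)
      have h2 := H849.OZ.one_prime h Nat.prime_two hd o2 r2 fun h' => not_conj (hx1.symm.trans h')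
      have h3 : cent yb ≤ 32 := cent_yb
      omega
    · by_cases hx2 : IsConj x yb
      · have h1 := h2e (by
          obtain ⟨n, hn⟩ := o2
          exact ⟨n, by rw [orderOf_eq_of_conj hx2, hn]⟩)
        have h2 := H849.OZ.one_prime h Nat.prime_two hd o1 r1 hx1
        have h3 : cent ya ≤ 32 := cent_ya
        omega
      · have h2 := two_prime h Nat.prime_two hd o1 o2 r1 r2 hx1 hx2 not_conj cent_ya cent_yb
        omega
  have hiso : ∀ r ∈ [13], charDegree (χ : L → ℂ) % r = 0 ∨ charDegree (χ : L → ℂ) % r = 1 ∨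
      charDegree (χ : L → ℂ) % r = r - 1 := by
    intro r hr
    obtain rfl := List.mem_singleton.1 hr
    exact H672.OZ.iso_mod h (by norm_num) (by norm_num) (by rw [hN]; norm_num) (by rw [hN]; norm_num)
      (by rw [hN]; norm_num) c13L h4
  have hm := H672.OZ.mem_of_sieve h hN (l := [(2, 12), (3, 3), (5, 2), (7, 1), (13, 1)]) (by decide +kernel)
    (by
      intro x hx
      simp only [List.mem_cons, List.not_mem_nil, or_false] at hx
      rcases hx with rfl | rfl | rfl | rfl | rfl <;> norm_num)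
    (by decide +kernel) h6 hiso (D := DD) (by decide +kernel)
  exact hd2 (DD_ok _ hm)

/-- **S4842, the row `G₂(4)`.** -/
theorem row_G2_four {S : Type u} [Group S] [Finite S] (_hs : IsSimpleGroup S) {F : Type} [Field F] [Fintype F]
    (hF : Fintype.card F = 4) (e : S ≃* Cfsg.Lie.chevG2.group F) : H730.OZ.Row S := by
  have hfin := finiteL
  obtain ⟨f⟩ := Cfsg.Agent.StdG24.Iso6.equiv_chev F hF
  exact H730.OZ.Row.congr (e.trans f.symm) row_L

end Cfsg.Agent.H785.G24
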